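import Groth.Prelude.Def_ModelsG
import Groth.Agent.S2209
import Groth.Agent.Models.DVRGeneric2
import Groth.Agent.Dix.VertGeom

/-!
# Components of the closed fibre of a model

* `iUnion_range_eq`: the listed components cover exactly the closed fibre.
* `gp_notMem`: the generic point of one component is not on another one.
* `isConnected_specialFibreSet`: the closed fibre of a flat proper model with `H⁰(C, O) = K` is connected.
* `exists_meet`: every nontrivial partition of the component list has a meeting pair.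
-/

set_option autoImplicit false
universe u

open CategoryTheory CategoryTheory.Limits AlgebraicGeometry

namespace Groth.Agent.Models.H71.Comps

section Top

/-- An irreducible subset of `F` is contained in a maximal irreducible subset of `F`. -/
lemma exists_maximal {T : Type*} [TopologicalSpace T] (F S : Set T) (hS : IsIrreducible S)
    (hSF : S ⊆ F) : ∃ Z, Maximal (fun S : Set T => IsIrreducible S ∧ S ⊆ F) Z ∧ S ⊆ Z := by
  obtain ⟨m, hSm, hm⟩ := zorn_subset_nonempty {t : Set T | IsIrreducible t ∧ t ⊆ F} (by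
    intro c hc hcc hne
    refine ⟨⋃₀ c, ⟨⟨?_, ?_⟩, ?_⟩, fun s hs => Set.subset_sUnion_of_mem hs⟩
    · obtain ⟨s, hs⟩ := hne
      obtain ⟨x, hx⟩ := (hc hs).1.nonempty
      exact ⟨x, s, hs, hx⟩
    · intro u v hu hv ⟨y, hy, hyu⟩ ⟨x, hx, hxv⟩
      obtain ⟨p, hpc, hyp⟩ := Set.mem_sUnion.1 hy
      obtain ⟨q, hqc, hxq⟩ := Set.mem_sUnion.1 hx
      rcases hcc.total hpc hqc with hpq | hqp
      · obtain ⟨z, hz, hz'⟩ := (hc hqc).1.2 u v hu hv ⟨y, hpq hyp, hyu⟩ ⟨x, hxq, hxv⟩
        exact ⟨z, ⟨q, hqc, hz⟩, hz'⟩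
      · obtain ⟨z, hz, hz'⟩ := (hc hpc).1.2 u v hu hv ⟨y, hyp, hyu⟩ ⟨x, hqp hxq, hxv⟩
        exact ⟨z, ⟨p, hpc, hz⟩, hz'⟩
    · exact Set.sUnion_subset fun s hs => (hc hs).2) S ⟨hS, hSF⟩
  exact ⟨m, hm, hSm⟩

end Top

section

variable {R : Type u} [CommRing R] [IsDomain R] [IsDiscreteValuationRing R]
  {X : Over (Spec (CommRingCat.of R))}

/-- The set underlying a vertical component. -/
abbrev rg (Γ : ArSurf.VertComp R X) : Set X.left := Set.range (Γ.ι.base : Γ.curve.left → X.left)

lemma isClosed_rg (Γ : ArSurf.VertComp R X) : IsClosed (rg Γ) := Γ.ι.isClosedEmbedding.isClosed_range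

lemma genPtOf_mem (Γ : ArSurf.VertComp R X) : Models.genPtOf R X Γ ∈ rg Γ := ⟨_, rfl⟩

lemma closure_genPtOf (Γ : ArSurf.VertComp R X) : closure {Models.genPtOf R X Γ} = rg Γ := by
  apply subset_antisymm
  · exact closure_minimal (Set.singleton_subset_iff.2 (genPtOf_mem Γ)) (isClosed_rg Γ)
  · rintro _ ⟨y, rfl⟩
    have h1 : y ∈ closure {genericPoint Γ.curve.left} := by
      rw [genericPoint_closure]; trivial
    have h2 : Γ.ι.base y ∈ Γ.ι.base '' closure {genericPoint Γ.curve.left} := ⟨y, h1, rfl⟩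
    have h3 := image_closure_subset_closure_image Γ.ι.continuous h2
    rw [Set.image_singleton] at h3
    exact h3

lemma isIrreducible_rg (Γ : ArSurf.VertComp R X) : IsIrreducible (rg Γ) := by
  rw [← closure_genPtOf]
  exact isIrreducible_singleton.closure

/-- A vertical component lies in the closed fibre. -/
lemma rg_subset (Γ : ArSurf.VertComp R X) : rg Γ ⊆ Models.specialFibreSet R X := by
  rintro _ ⟨y, rfl⟩
  change X.hom.base (Γ.ι.base y) = IsLocalRing.closedPoint R
  have h1 : X.hom.base (Γ.ι.base y) = (Γ.ι ≫ X.hom).base y := rfl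
  rw [h1, Γ.w]
  change (Spec.map (CommRingCat.ofHom (IsLocalRing.residue R))).base (Γ.curve.hom.base y) = _
  have h2 : Γ.curve.hom.base y = (IsLocalRing.closedPoint (IsLocalRing.ResidueField R) :
      PrimeSpectrum (IsLocalRing.ResidueField R)) :=
    Subsingleton.elim (α := PrimeSpectrum (IsLocalRing.ResidueField R)) _ _
  rw [h2]
  exact IsLocalRing.comap_closedPoint (IsLocalRing.residue R)

variable {n : ℕ} {Γ : Fin n → ArSurf.VertComp R X}

lemma rg_mem (hΓ : Models.IsComponentList R X Γ) (i : Fin n) :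
    rg (Γ i) ∈ Models.fibreComponents R X := by
  rw [← hΓ.2]; exact ⟨i, rfl⟩

/-- The listed components cover the closed fibre. -/
lemma iUnion_rg (hΓ : Models.IsComponentList R X Γ) : ⋃ i, rg (Γ i) = Models.specialFibreSet R X := by
  apply subset_antisymm
  · exact Set.iUnion_subset fun i => rg_subset (Γ i)
  · intro x hx
    obtain ⟨Z, hZ, hxZ⟩ := exists_maximal (Models.specialFibreSet R X) {x} isIrreducible_singleton
      (Set.singleton_subset_iff.2 hx)
    have h1 : Z ∈ Models.fibreComponents R X := hZ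
    rw [← hΓ.2] at h1
    obtain ⟨i, hi⟩ := h1
    refine Set.mem_iUnion.2 ⟨i, ?_⟩
    have hi' : rg (Γ i) = Z := hi
    rw [hi']
    exact hxZ rfl

lemma mem_specialFibreSet_iff (hΓ : Models.IsComponentList R X Γ) (x : X.left) :
    x ∈ Models.specialFibreSet R X ↔ ∃ i, x ∈ rg (Γ i) := by
  rw [← iUnion_rg hΓ, Set.mem_iUnion]

lemma eq_of_rg_subset (hΓ : Models.IsComponentList R X Γ) {i j : Fin n} (h : rg (Γ i) ⊆ rg (Γ j)) :
    i = j := by
  apply hΓ.1
  exact subset_antisymm h ((rg_mem hΓ i).2 ⟨isIrreducible_rg (Γ j), rg_subset (Γ j)⟩ h)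

/-- Any vertical prime divisor is one of the listed components, as soon as it contains (equivalently equals)
one of them. -/
lemma exists_rg_eq (hΓ : Models.IsComponentList R X Γ) (Δ : ArSurf.VertComp R X)
    (hΔ : Maximal (fun S : Set X.left => IsIrreducible S ∧ S ⊆ Models.specialFibreSet R X) (rg Δ)) :
    ∃ i, rg (Γ i) = rg Δ := by
  have h1 : rg Δ ∈ Models.fibreComponents R X := hΔ
  rw [← hΓ.2] at h1
  obtain ⟨i, hi⟩ := h1
  exact ⟨i, hi⟩

/-- The generic point of `Γ_i` lies on `Γ_j` only for `i = j`. -/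
lemma genPtOf_mem_iff (hΓ : Models.IsComponentList R X Γ) {i j : Fin n} :
    Models.genPtOf R X (Γ i) ∈ rg (Γ j) ↔ i = j := by
  constructor
  · intro h
    apply eq_of_rg_subset hΓ
    rw [← closure_genPtOf]
    exact closure_minimal (Set.singleton_subset_iff.2 h) (isClosed_rg (Γ j))
  · rintro rfl
    exact genPtOf_mem _

/-- Nonempty partitions of the component list of a connected closed fibre have a meeting pair. -/
lemma exists_meet_of_isPreconnected (hΓ : Models.IsComponentList R X Γ)
    (hconn : _root_.IsPreconnected (Models.specialFibreSet R X)) (I : Finset (Fin n)) (hI : I.Nonempty)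
    (hI' : I ≠ Finset.univ) : ∃ i ∈ I, ∃ j ∉ I, (rg (Γ i) ∩ rg (Γ j)).Nonempty := by
  classical
  by_contra hcon
  push Not at hcon
  obtain ⟨i₀, hi₀⟩ := hI
  obtain ⟨j₀, hj₀⟩ : ∃ j, j ∉ I := by
    by_contra h
    push Not at h
    exact hI' (Finset.eq_univ_iff_forall.2 h)
  let A : Set X.left := ⋃ i ∈ I, rg (Γ i)
  let B : Set X.left := ⋃ j ∈ Iᶜ, rg (Γ j)
  have hA : IsClosed A := isClosed_biUnion_finset fun i _ => isClosed_rg (Γ i)
  have hB : IsClosed B := isClosed_biUnion_finset fun i _ => isClosed_rg (Γ i)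
  have hAB : Models.specialFibreSet R X ⊆ A ∪ B := by
    intro x hx
    obtain ⟨i, hi⟩ := (mem_specialFibreSet_iff hΓ x).1 hx
    by_cases h : i ∈ I
    · exact Or.inl (Set.mem_biUnion (Finset.mem_coe.2 h) hi)
    · exact Or.inr (Set.mem_biUnion (Finset.mem_coe.2 (Finset.mem_compl.2 h)) hi)
  have h1 := isPreconnected_closed_iff.1 hconn A B hA hB hAB
    ⟨_, rg_subset (Γ i₀) (genPtOf_mem _), Set.mem_biUnion (Finset.mem_coe.2 hi₀) (genPtOf_mem _)⟩
    ⟨_, rg_subset (Γ j₀) (genPtOf_mem _), Set.mem_biUnion (Finset.mem_coe.2 (Finset.mem_compl.2 hj₀))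
      (genPtOf_mem _)⟩
  obtain ⟨x, -, hxA, hxB⟩ := h1
  obtain ⟨i, hi, hxi⟩ := Set.mem_iUnion₂.1 hxA
  obtain ⟨j, hj, hxj⟩ := Set.mem_iUnion₂.1 hxB
  have h2 := hcon i hi j (Finset.mem_compl.1 hj)
  exact (Set.mem_empty_iff_false x).1 (h2 ▸ ⟨hxi, hxj⟩)

lemma pos_of_nonempty (hΓ : Models.IsComponentList R X Γ)
    (hne : (Models.specialFibreSet R X).Nonempty) : 0 < n := by
  obtain ⟨x, hx⟩ := hne
  obtain ⟨i, -⟩ := (mem_specialFibreSet_iff hΓ x).1 hx
  exact i.pos

end

section Model

variable {R : Type u} [CommRing R] [IsDomain R] [IsDiscreteValuationRing R]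
  {C X : Scheme.{u}} {f : C ⟶ Spec (CommRingCat.of (FractionRing R))} {p : X ⟶ Spec (CommRingCat.of R)}

/-- The closed fibre is the range of `X_k → X`. -/
lemma range_specialFibre :
    Set.range (pullback.fst p (Spec.map (CommRingCat.ofHom
      (algebraMap R (IsLocalRing.ResidueField R))))) = Models.specialFibreSet R (Over.mk p) :=
  Groth.Agent.S2209.range_specialFibre_fst R X p

/-- The closed fibre of a regular proper model of a curve with `H⁰(C, O) = K` is connected and nonempty. -/
theorem isConnected_specialFibreSet (hC : Curve.IsSmoothProperCurve (FractionRing R) C f)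
    (hH0 : IsIso f.appTop) (hX : Models.IsRegularProperModel R X p C f) :
    _root_.IsConnected (Models.specialFibreSet R (Over.mk p)) := by
  have h : ConnectedSpace ↥(pullback p (Spec.map (CommRingCat.ofHom
      (algebraMap R (IsLocalRing.ResidueField R))))) :=
    Groth.Agent.S2209.result R C X f p hC hH0 hX
  rw [← range_specialFibre]
  exact isConnected_range (Scheme.Hom.continuous _)

theorem nonempty_specialFibreSet (hC : Curve.IsSmoothProperCurve (FractionRing R) C f)
    (hH0 : IsIso f.appTop) (hX : Models.IsRegularProperModel R X p C f) :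
    (Models.specialFibreSet R (Over.mk p)).Nonempty :=
  (isConnected_specialFibreSet hC hH0 hX).nonempty

variable {n : ℕ} {Γ : Fin n → ArSurf.VertComp R (Over.mk p)}

theorem pos (hC : Curve.IsSmoothProperCurve (FractionRing R) C f)
    (hH0 : IsIso f.appTop) (hX : Models.IsRegularProperModel R X p C f)
    (hΓ : Models.IsComponentList R (Over.mk p) Γ) : 0 < n :=
  pos_of_nonempty hΓ (nonempty_specialFibreSet hC hH0 hX)

/-- For every nonempty proper set `I` of components some `Γ_i` (`i ∈ I`) meets some `Γ_j` (`j ∉ I`). -/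
theorem exists_meet (hC : Curve.IsSmoothProperCurve (FractionRing R) C f)
    (hH0 : IsIso f.appTop) (hX : Models.IsRegularProperModel R X p C f)
    (hΓ : Models.IsComponentList R (Over.mk p) Γ) (I : Finset (Fin n)) (hI : I.Nonempty)
    (hI' : I ≠ Finset.univ) : ∃ i ∈ I, ∃ j ∉ I, (rg (Γ i) ∩ rg (Γ j)).Nonempty :=
  exists_meet_of_isPreconnected hΓ (isConnected_specialFibreSet hC hH0 hX).isPreconnected I hI hI'

/-- The complement of the closed fibre is the range of the generic fibre. -/
theorem range_generic_eq_compl {g : C ⟶ X}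
    (hg : IsPullback g f p (Spec.map (CommRingCat.ofHom (algebraMap R (FractionRing R))))) :
    Set.range g = (Models.specialFibreSet R (Over.mk p))ᶜ := by
  have h1 := Groth.Agent.Models.DVRGeneric.isOpenImmersion_generic R (FractionRing R)
  have h2 := Groth.Agent.Models.DVRGeneric.isOpenImmersion_of_isPullback hg
  have h3 := Groth.Agent.Models.DVRGeneric.opensRange_eq_of_isPullback hg
  have h4 : Set.range g = p ⁻¹' (Set.range (Spec.map
      (CommRingCat.ofHom (algebraMap R (FractionRing R))))) := by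
    have := congrArg (fun U : X.Opens => (U : Set X)) h3
    simpa using this
  rw [h4]
  ext x
  constructor
  · rintro ⟨y, hy⟩ hx
    have h5 : p x = (IsLocalRing.closedPoint R : PrimeSpectrum R) := hx
    rw [h5] at hy
    have h6 : y.asIdeal = ⊥ := (eq_bot_or_eq_top y.asIdeal).resolve_right y.isPrime.ne_top
    have h7 : (IsLocalRing.closedPoint R : PrimeSpectrum R).asIdeal =
        y.asIdeal.comap (algebraMap R (FractionRing R)) := congrArg PrimeSpectrum.asIdeal hy.symm
    rw [h6, ← RingHom.ker_eq_comap_bot,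
      (RingHom.injective_iff_ker_eq_bot _).mp (IsFractionRing.injective R (FractionRing R))] at h7
    exact IsDiscreteValuationRing.not_a_field R h7
  · intro hx
    exact Groth.Agent.Models.DVRGeneric.range_generic R (FractionRing R) (p x) hx

end Model

end Groth.Agent.Models.H71.Comps
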