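import Groth.Prelude.Def_ModelsG
import Groth.Agent.Dix.IdealModCartier
import Groth.Agent.Dix.VertGeom
import Groth.Agent.Grpsch.PicGrp
import Groth.Agent.Models.H71.Comps

/-!
# `O_X(Γ)` is trivial on the generic fibre
-/

set_option autoImplicit false
universe u

open CategoryTheory CategoryTheory.Limits AlgebraicGeometry Opposite TopologicalSpace

namespace Groth.Agent.Models.H71.PicVert

open Groth.Agent.Dix.IdealModCartier Groth.Agent.Dix.VertGeom
open Groth.Agent.Divis.EffCartier Groth.Agent.Divis.IdealComap
open Groth.Agent.Grpsch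
open Groth.Agent.Grpsch.PicGrp (Pic mk mk_eq_iff mk_congr mk_mul_mk one_def inv_mk mk_tensorPow mk_eq_one_iff
  pull pull_mk exists_mk ind)

section Generic

variable {Y X : Scheme.{u}}

/-- The pullback of an effective Cartier divisor along a morphism missing its support is trivial. -/
lemma pull_eq_one_of_disjoint (g : Y ⟶ X) {D : X.IdealSheafData} {L : X.Modules}
    (hLi : PicF.IsInvertible L)
    (hL : ClSub.IsInverseOf L (ClSub.idealMod D)) (h : ∀ y, g y ∉ D.support) :
    pull g (mk L hLi) = 1 := by
  have hD := isEffCartierIdeal_of_isInverseOf hL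
  have h1 : D.comap g = ⊤ := by
    rw [← Scheme.IdealSheafData.support_eq_bot_iff, Scheme.IdealSheafData.support_comap]
    ext y
    constructor
    · intro hy
      exact absurd hy (h y)
    · intro hy
      exact hy.elim
  have hD' : BlowUp.IsEffCartierIdeal (D.comap g) := by rw [h1]; exact isEff_top
  obtain ⟨e⟩ := pullback_idealMod g hD hD'
  have h2 : Nonempty (Coh.structureModule Y ≅ ClSub.idealMod (D.comap g)) := by
    apply idealMod_principal (a := 1)
    intro W hW
    rw [map_one, h1]
    refine ⟨one_mem _, ?_⟩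
    rw [Ideal.span_singleton_one]
    rfl
  obtain ⟨e2⟩ := h2
  have hI := (isInvertible_of_isInverseOf hL).2
  have h3 : pull g (mk (ClSub.idealMod D) hI) = 1 := by
    rw [pull_mk, mk_eq_one_iff]
    exact ⟨e ≪≫ e2.symm⟩
  have h4 : mk L hLi * mk (ClSub.idealMod D) hI = 1 := by
    rw [mk_mul_mk, mk_eq_one_iff]
    exact hL
  have h5 := congrArg (pull g) h4
  rw [map_mul, h3, mul_one, map_one] at h5
  exact h5

end Generic

section Model

variable {R : Type u} [CommRing R] [IsDomain R] [IsDiscreteValuationRing R]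
  {C X : Scheme.{u}} {f : C ⟶ Spec (CommRingCat.of (FractionRing R))} {p : X ⟶ Spec (CommRingCat.of R)}

/-- `O_X(Γ)` restricts to the trivial module on the generic fibre. -/
theorem pull_mk_eq_one {g : C ⟶ X}
    (hg : IsPullback g f p (Spec.map (CommRingCat.ofHom (algebraMap R (FractionRing R)))))
    (Γ : ArSurf.VertComp R (Over.mk p)) {L : X.Modules} (hLi : PicF.IsInvertible L)
    (hL : ClSub.IsInverseOf L (ClSub.idealMod Γ.ι.ker)) :
    pull g (mk L hLi) = 1 := by
  apply pull_eq_one_of_disjoint g hLi hL
  intro y hy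
  have h1 : g y ∈ Set.range Γ.ι := (mem_support_ker_iff Γ.ι _).1 hy
  have h2 := Comps.rg_subset Γ h1
  have h3 : g y ∈ (Models.specialFibreSet R (Over.mk p))ᶜ := by
    rw [← Comps.range_generic_eq_compl hg]
    exact ⟨y, rfl⟩
  exact h3 h2

end Model

end Groth.Agent.Models.H71.PicVert
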